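import Cfsg.Agent.Lib.VaughanLee.Basic

/-!
Vaughan-Lee's theorem: if every element outside a maximal subgroup of a finite p-group has at most
`p ^ b` conjugates, then the derived subgroup has order at most `p ^ (b (b + 1) / 2)`.
-/

set_option autoImplicit false

open scoped commutatorElement

namespace CfsgLib.VaughanLee

universe u

/-- The statement proved by induction on `b`. -/
def BreadthBound (p b : ℕ) : Prop :=
  ∀ (H : Type u) [Group H] [Finite H], IsPGroup p H → ∀ M : Subgroup H, M.Normal → M.index = p →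
    (∀ y : H, y ∉ M → (Subgroup.centralizer ({y} : Set H)).index ≤ p ^ b) →
    Nat.card (commutator H) ≤ p ^ tri b

variable {G : Type u} [Group G] [Finite G] {p : ℕ} [hp : Fact p.Prime]

omit [Finite G] in
theorem relIndex_eq_of_not_le {L M : Subgroup G} [M.Normal] (hM : M.index = p) (h : ¬ L ≤ M) :
    M.relIndex L = p := by
  refine (hp.out.eq_one_or_self_of_dvd _ (hM ▸ Subgroup.relIndex_dvd_index_of_normal M L)).resolve_left ?_
  exact fun h1 => h (Subgroup.relIndex_eq_one.1 h1)

/-- Induction applied to a section `L / N`. -/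
theorem ih_quot {c : ℕ} (IH : BreadthBound.{u} p c) (hG : IsPGroup p G) {N L M : Subgroup G}
    [N.Normal] [M.Normal] (hM : M.index = p) (hNM : N ≤ M) (hLM : ¬ L ≤ M)
    (h : ∀ y ∈ L, y ∉ M → (cbar N y).relIndex L ≤ p ^ c) :
    Nat.card ↥⁅L.map (QuotientGroup.mk' N), L.map (QuotientGroup.mk' N)⁆ ≤ p ^ tri c := by
  rw [← card_commutator_subgroup]
  set q := QuotientGroup.mk' N with hq
  have hMn : (M.map q).Normal :=
    Subgroup.Normal.map inferInstance q (QuotientGroup.mk'_surjective N)
  have hcm : (M.map q).comap q = M :=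
    Subgroup.comap_map_eq_self (by rwa [hq, QuotientGroup.ker_mk'])
  refine IH _ ((hG.to_quotient N).to_subgroup _) ((M.map q).subgroupOf (L.map q)) inferInstance ?_ ?_
  · show (M.map q).relIndex (L.map q) = p
    rw [← Subgroup.relIndex_comap, hcm, relIndex_eq_of_not_le hM hLM]
  · rintro ⟨_, y, hy, rfl⟩ hyM
    rw [centralizer_subgroupOf]
    show (Subgroup.centralizer _).relIndex (L.map q) ≤ p ^ c
    rw [← relIndex_cbar]
    exact h y hy fun hM' => hyM (Subgroup.mem_subgroupOf.2 (Subgroup.mem_map_of_mem q hM'))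

omit hp in
/-- Induction applied to a quotient. -/
theorem ih_top {c : ℕ} (IH : BreadthBound.{u} p c) (hG : IsPGroup p G) {N M : Subgroup G}
    [N.Normal] [M.Normal] (hM : M.index = p) (hNM : N ≤ M)
    (h : ∀ y, y ∉ M → (cbar N y).index ≤ p ^ c) :
    Nat.card (commutator (G ⧸ N)) ≤ p ^ tri c := by
  set q := QuotientGroup.mk' N with hq
  have hMn : (M.map q).Normal :=
    Subgroup.Normal.map inferInstance q (QuotientGroup.mk'_surjective N)
  refine IH _ (hG.to_quotient N) (M.map q) hMn ?_ ?_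
  · rw [← Subgroup.index_comap_of_surjective _ (QuotientGroup.mk'_surjective N),
      ← hq, Subgroup.comap_map_eq_self (by rwa [hq, QuotientGroup.ker_mk']), hM]
  · intro y hy
    obtain ⟨a, rfl⟩ := QuotientGroup.mk'_surjective N y
    rw [← index_cbar]
    exact h a fun ha => hy (Subgroup.mem_map_of_mem q ha)

/-- A maximal subgroup `K ≠ M` whose elements outside `M` have their centralizers inside `K`. -/
theorem bound_of_centralizer_le {b : ℕ} (hb : 1 ≤ b) (IH : BreadthBound.{u} p (b - 1))
    (hG : IsPGroup p G) {K M : Subgroup G} [K.Normal] [M.Normal] (hK : K.index = p)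
    (hM : M.index = p) (hne : K ≠ M)
    (hgood : ∀ y : G, y ∉ M → (Subgroup.centralizer ({y} : Set G)).index ≤ p ^ b)
    (h : ∀ y ∈ K, y ∉ M → Subgroup.centralizer ({y} : Set G) ≤ K) :
    Nat.card (commutator G) ≤ p ^ tri b := by
  have hKM : ¬ K ≤ M := fun h' => hne (eq_of_le_of_index_le h' (by rw [hK, hM]))
  obtain ⟨L, -, -, -, -, g, -, hgM, hgK⟩ := exists_third hG hK hM hne
  have h1 : Nat.card ↥⁅K, K⁆ ≤ p ^ tri (b - 1) := by
    rw [← card_commutator_subgroup]
    refine IH _ (hG.to_subgroup K) (M.subgroupOf K) inferInstance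
      (relIndex_eq_of_not_le hM hKM) ?_
    rintro ⟨y, hy⟩ hyM
    rw [centralizer_subgroupOf]
    show (Subgroup.centralizer ({y} : Set G)).relIndex K ≤ p ^ (b - 1)
    have h2 := hgood y (fun h' => hyM (Subgroup.mem_subgroupOf.2 h'))
    rw [← Subgroup.relIndex_mul_index (h y hy fun h' => hyM (Subgroup.mem_subgroupOf.2 h')), hK,
      show b = b - 1 + 1 by omega, pow_succ] at h2
    exact Nat.le_of_mul_le_mul_right h2 hp.out.pos
  refine (card_commutator_le_index hK hgK).trans ((Nat.mul_le_mul h1 (hgood g hgM)).trans ?_)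
  rw [← pow_add]
  refine Nat.pow_le_pow_right hp.out.pos (le_of_eq ?_)
  obtain ⟨d, rfl⟩ := Nat.exists_eq_add_of_le hb
  rw [Nat.add_sub_cancel_left, add_comm 1 d, tri_succ]

section Setup

variable (M : Subgroup G) (x : G) (N : Subgroup G)

/-- The standing hypotheses: `x` is central modulo `N = [x, G]`. -/
structure Datum (p r : ℕ) : Prop where
  isPGroup : IsPGroup p G
  normal : N.Normal
  normalM : M.Normal
  indexM : M.index = p
  central : N ≤ Subgroup.center G
  le_comm : N ≤ commutator G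
  le_M : N ≤ M
  x_mem : x ∈ M
  comm_mem : ∀ h : G, ⁅x, h⁆ ∈ N
  card_eq : Nat.card N = p ^ r
  index_eq : (cz x).index = p ^ r
  comm_le : commutator G ≤ cz x
  pow_mem : ∀ h : G, h ^ p ∈ cz x
  r_pos : 1 ≤ r

variable {M x N} {r b : ℕ}


omit [Finite G] hp in
theorem Datum.normalR (hd : Datum M x N p r) : (cz x).Normal :=
  ⟨fun n hn g => by
    rw [show g * n * g⁻¹ = ⁅g, n⁆ * n by simp only [commutatorElement_def]; group]
    exact Subgroup.mul_mem _ (hd.comm_le
      (Subgroup.commutator_mem_commutator (Subgroup.mem_top g) (Subgroup.mem_top n))) hn⟩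

omit [Finite G] hp in
theorem Datum.cbar_mul (hd : Datum M x N p r) [N.Normal] (y : G) :
    cbar N (x * y) = cbar N y := by
  have hx : ∀ z : G ⧸ N, z * QuotientGroup.mk' N x = QuotientGroup.mk' N x * z := by
    intro z
    obtain ⟨h, rfl⟩ := QuotientGroup.mk'_surjective N z
    exact (commutatorElement_eq_one_iff_mul_comm.1
      (by rw [← map_commutatorElement, mk_commutator]; exact hd.comm_mem h)).symm
  ext h
  simp only [cbar, Subgroup.mem_comap, Subgroup.mem_centralizer_singleton_iff, map_mul]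
  rw [← mul_assoc, hx, mul_assoc, mul_assoc, mul_right_inj]

omit [Finite G] hp in
theorem centralizer_inf (y : G) :
    cz y ⊓ cz (x * y) = cz y ⊓ cz x := by
  ext h
  simp only [Subgroup.mem_inf, Subgroup.mem_centralizer_singleton_iff]
  refine and_congr_right fun h1 => ?_
  rw [← mul_assoc, mul_assoc x y h, ← h1, ← mul_assoc, mul_left_inj]

omit [Finite G] hp in
theorem centralizer_inf' (y : G) :
    cz y ⊓ cz (x * y) = cz (x * y) ⊓ cz x := by
  ext h
  simp only [Subgroup.mem_inf, Subgroup.mem_centralizer_singleton_iff]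
  constructor
  · rintro ⟨h1, h2⟩
    refine ⟨h2, ?_⟩
    rwa [← mul_assoc, mul_assoc x y h, ← h1, ← mul_assoc, mul_left_inj] at h2
  · rintro ⟨h2, h3⟩
    refine ⟨?_, h2⟩
    rwa [← mul_assoc, h3, mul_assoc, mul_assoc, mul_right_inj] at h2

variable (hd : Datum M x N p r)
  (hgood : ∀ y : G, y ∉ M → (cz y).index ≤ p ^ b)

include hd

omit [Finite G] hp in
theorem Datum.mul_notMem {y : G} (hy : y ∉ M) : x * y ∉ M := fun h =>
  hy ((M.mul_mem_cancel_left hd.x_mem).1 h)

omit [Finite G] hp in
theorem Datum.centralizer_mul_le [N.Normal] (y : G) : cz (x * y) ≤ cbar N y :=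
  hd.cbar_mul y ▸ centralizer_le_cbar N (x * y)

omit [Finite G] hp in
theorem Datum.exists_inf_le (hgood : ∀ y : G, y ∉ M → (cz y).index ≤ p ^ b) [N.Normal] {y : G}
    (hy : y ∉ M) : (cz y ⊓ cz x).index * (cbar N y).index ≤ p ^ b * p ^ b := by
  have h1 : cz y ⊓ cz (x * y) ≤ cbar N y := inf_le_left.trans (centralizer_le_cbar N y)
  calc (cz y ⊓ cz x).index * (cbar N y).index
      = (cz y ⊓ cz (x * y)).relIndex (cbar N y) * (cbar N y).index * (cbar N y).index := by
        rw [Subgroup.relIndex_mul_index h1, centralizer_inf]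
    _ ≤ (cz y).relIndex (cbar N y) * (cz (x * y)).relIndex (cbar N y) * (cbar N y).index *
          (cbar N y).index :=
        Nat.mul_le_mul_right _ (Nat.mul_le_mul_right _ Subgroup.relIndex_inf_le)
    _ = ((cz y).relIndex (cbar N y) * (cbar N y).index) *
          ((cz (x * y)).relIndex (cbar N y) * (cbar N y).index) := by ring
    _ ≤ _ := by
        rw [Subgroup.relIndex_mul_index (centralizer_le_cbar N y),
          Subgroup.relIndex_mul_index (hd.centralizer_mul_le y)]
        exact Nat.mul_le_mul (hgood y hy) (hgood _ (hd.mul_notMem hy))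

theorem Datum.index_cbar_le (hgood : ∀ y : G, y ∉ M → (cz y).index ≤ p ^ b) [N.Normal] {y : G}
    (hy : y ∉ M) (hyR : ¬ cz y ≤ cz x) : (cbar N y).index ≤ p ^ (b - 1) := by
  refine index_le_pred hd.isPGroup (lt_of_le_of_ne (hd.centralizer_mul_le y) fun h => hyR ?_)
    (hgood _ (hd.mul_notMem hy))
  intro h' hh
  have h2 : h' ∈ cz y ⊓ cz (x * y) := ⟨hh, by rw [h]; exact centralizer_le_cbar N y hh⟩
  rw [centralizer_inf] at h2
  exact h2.2

omit hd [Finite G] hp in
theorem not_le_of_notMem {y : G} (hy : y ∉ cz x) : ¬ cz y ≤ cz x :=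
  fun h => hy (h (Subgroup.mem_centralizer_singleton_iff.2 rfl))

/-- The case `b < r`. -/
theorem Datum.bound_large (hgood : ∀ y : G, y ∉ M → (cz y).index ≤ p ^ b)
    (IH : ∀ c < b, BreadthBound.{u} p c) (hrb : b < r) (hnc : ∀ y : G, y ∉ M → y ∉ Subgroup.center G) :
    Nat.card (commutator G) ≤ p ^ tri b := by
  have := hd.normal
  have := hd.normalM
  have hG := hd.isPGroup
  have hRn := hd.normalR
  have hRtop : cz x ≠ ⊤ := fun h => by
    have := hd.index_eq
    rw [h, Subgroup.index_top] at this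
    exact absurd this (Nat.one_lt_pow (by have := hd.r_pos; omega) hp.out.one_lt).ne
  obtain ⟨K, hK, hKn, hKne, hKR⟩ : ∃ K : Subgroup G, K.index = p ∧ K.Normal ∧ K ≠ M ∧
      ∀ y ∈ cz x, y ∉ M → y ∈ K := by
    by_cases hRM : cz x ≤ M
    · obtain ⟨y, -, hy⟩ := SetLike.exists_of_lt
        (lt_top_iff_ne_top.2 fun h => hp.out.ne_one (by rw [← hd.indexM, h, Subgroup.index_top]) :
          M < ⊤)
      have hyt : Subgroup.zpowers y ≠ ⊤ := fun h => hnc y hy (Subgroup.mem_center_iff.2 fun g => by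
        obtain ⟨i, rfl⟩ := Subgroup.mem_zpowers_iff.1 (h ▸ Subgroup.mem_top g)
        exact (Commute.zpow_left (Commute.refl y) i).eq)
      obtain ⟨K, hyK, hKn, hK, -⟩ := PGroups.exists_le_index_prime hG hyt
      exact ⟨K, hK, hKn, fun h => hy (h ▸ hyK (Subgroup.mem_zpowers y)),
        fun z hz hzM => absurd (hRM hz) hzM⟩
    · obtain ⟨K, hRK, hKn, hK, -⟩ := PGroups.exists_le_index_prime hG hRtop
      exact ⟨K, hK, hKn, fun h => hRM (h ▸ hRK), fun z hz _ => hRK hz⟩
  obtain ⟨L, hLn, hL, hKML, hLK, yL, hyL, hyLM, hyLK⟩ := exists_third hG hK hd.indexM hKne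
  have hLR : ∀ y ∈ L, y ∉ M → y ∉ cz x := fun y hy hyM hyR =>
    hyM (hLK y hy (hKR y hyR hyM))
  have hbd : ∀ y, y ∉ M → y ∉ cz x → r + 1 ≤ 2 * b ∧ (cbar N y).index ≤ p ^ (2 * b - r - 1) := by
    intro y hy hyR
    have hlt : cz y ⊓ cz x < cz x := lt_of_le_of_ne inf_le_right fun h => hyR <| by
      have hxy : x ∈ cz y := (h.ge (Subgroup.mem_centralizer_singleton_iff.2 rfl : x ∈ cz x)).1
      exact Subgroup.mem_centralizer_singleton_iff.2
        (Subgroup.mem_centralizer_singleton_iff.1 hxy).symm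
    have h1 := index_mul_le hG hlt
    rw [hd.index_eq, ← pow_succ] at h1
    have h2 : p ^ (r + 1) * (cbar N y).index ≤ p ^ (2 * b) := by
      rw [show p ^ (2 * b) = p ^ b * p ^ b by rw [two_mul, pow_add]]
      exact (Nat.mul_le_mul_right _ h1).trans (hd.exists_inf_le hgood hy)
    have hle : r + 1 ≤ 2 * b := (Nat.pow_le_pow_iff_right hp.out.one_lt).1
      ((Nat.le_mul_of_pos_right _
        (Nat.pos_of_ne_zero Subgroup.index_ne_zero_of_finite)).trans h2)
    refine ⟨hle, ?_⟩
    rw [show p ^ (2 * b) = p ^ (r + 1) * p ^ (2 * b - r - 1) by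
      rw [← pow_add]; congr 1; omega] at h2
    exact Nat.le_of_mul_le_mul_left h2 (pow_pos hp.out.pos _)
  obtain ⟨hrb2, -⟩ := hbd yL hyLM (hLR yL hyL hyLM)
  obtain ⟨g, hgK, hgM, hgR⟩ : ∃ g ∈ K, g ∉ M ∧ g ∉ cz x := by
    by_contra hcon
    push Not at hcon
    obtain ⟨k, hk, hkM⟩ := SetLike.not_le_iff_exists.1
      (fun h => hKne (eq_of_le_of_index_le h (by rw [hK, hd.indexM])) : ¬ K ≤ M)
    have hle : K ≤ cz x := fun m hm => by
      by_cases hmM : m ∈ M
      · exact ((cz x).mul_mem_cancel_right (hcon k hk hkM)).1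
          (hcon (m * k) (K.mul_mem hm hk) fun h => hkM ((M.mul_mem_cancel_left hmM).1 h))
      · exact hcon m hm hmM
    have h := Nat.le_of_dvd (by rw [hK]; exact hp.out.pos) (Subgroup.index_dvd_of_le hle)
    rw [hd.index_eq, hK] at h
    have : p ^ 2 ≤ p ^ r := Nat.pow_le_pow_right hp.out.pos (by omega)
    have := hp.out.two_le
    nlinarith
  set c := 2 * b - r - 1 with hc
  have hNL : N ≤ L := hd.le_comm.trans (commutator_le_of_index hL)
  have hLM : ¬ L ≤ M := fun h => hyLM (h hyL)
  have h1 := ih_quot (IH c (by omega)) hG hd.indexM hd.le_M hLM fun y hy hyM =>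
    (relIndex_le_index _ _).trans (hbd y hyM (hLR y hy hyM)).2
  have hLb : (L.map (QuotientGroup.mk' N)).index = p := by
    rw [← Subgroup.index_comap_of_surjective _ (QuotientGroup.mk'_surjective N),
      Subgroup.comap_map_eq_self (by rwa [QuotientGroup.ker_mk']), hL]
  have hLbn : (L.map (QuotientGroup.mk' N)).Normal :=
    Subgroup.Normal.map inferInstance _ (QuotientGroup.mk'_surjective N)
  have h2 := card_commutator_le_index hLb (g := QuotientGroup.mk' N g) (fun h => hgM (hLK g (by
    rw [← Subgroup.mem_comap, Subgroup.comap_map_eq_self (by rwa [QuotientGroup.ker_mk'])] at h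
    exact h) hgK))
  rw [card_commutator_quotient hd.le_comm, hd.card_eq]
  refine (Nat.mul_le_mul_left _ (h2.trans (Nat.mul_le_mul h1 ((index_cbar N g).ge.trans
    (hbd g hgM hgR).2)))).trans ?_
  rw [← pow_add, ← pow_add]
  refine Nat.pow_le_pow_right hp.out.pos ?_
  have := tri_gap (b := b) (c := c) (r := r) (by omega) (by omega)
  omega

/-- The case `r ≤ b`. -/
theorem Datum.bound_small (hgood : ∀ y : G, y ∉ M → (cz y).index ≤ p ^ b)
    (IH : ∀ c < b, BreadthBound.{u} p c) (hrb : r ≤ b) :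
    Nat.card (commutator G) ≤ p ^ tri b := by
  classical
  have := hd.normal
  have := hd.normalM
  have hG := hd.isPGroup
  have hRn := hd.normalR
  obtain ⟨b, rfl⟩ : ∃ b', b = b' + 1 := ⟨b - 1, by have := hd.r_pos; omega⟩
  by_cases hall : ∀ y, y ∉ M → (cbar N y).index ≤ p ^ b
  · have h1 := ih_top (IH b (by omega)) hG hd.indexM hd.le_M hall
    rw [card_commutator_quotient hd.le_comm, hd.card_eq]
    refine (Nat.mul_le_mul_left _ h1).trans ?_
    rw [← pow_add]
    exact Nat.pow_le_pow_right hp.out.pos (by rw [tri_succ]; omega)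
  push Not at hall
  obtain ⟨y₀, hy₀, hy₀b⟩ := hall
  have hy₀R : cz y₀ ≤ cz x := by
    by_contra h
    exact absurd (hd.index_cbar_le hgood hy₀ h) (not_le.2 hy₀b)
  have hy₀R' : y₀ ∈ cz x := hy₀R (Subgroup.mem_centralizer_singleton_iff.2 rfl)
  have hRM : ¬ cz x ≤ M := fun h => hy₀ (h hy₀R')
  have hRtop : cz x ≠ ⊤ := fun h => by
    have := hd.index_eq
    rw [h, Subgroup.index_top] at this
    exact absurd this (Nat.one_lt_pow (by have := hd.r_pos; omega) hp.out.one_lt).ne
  have hpred : ∀ y, y ∉ M → y ∉ cz x → (cbar N y).index ≤ p ^ b := fun y hy hyR => by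
    simpa using hd.index_cbar_le hgood hy (not_le_of_notMem hyR)
  have hstep : ∀ L : Subgroup G, L.Normal → L.index = p → ∀ c, ∀ g ∉ L,
      Nat.card ↥⁅L.map (QuotientGroup.mk' N), L.map (QuotientGroup.mk' N)⁆ ≤ p ^ tri c →
      ∀ e, (cbar N g).index ≤ p ^ e → r + (tri c + e) ≤ tri (b + 1) →
      Nat.card (commutator G) ≤ p ^ tri (b + 1) := by
    intro L hLn hL c g hg hc e he harith
    have hNL : N ≤ L := hd.le_comm.trans (commutator_le_of_index hL)
    have hLb : (L.map (QuotientGroup.mk' N)).index = p := by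
      rw [← Subgroup.index_comap_of_surjective _ (QuotientGroup.mk'_surjective N),
        Subgroup.comap_map_eq_self (by rwa [QuotientGroup.ker_mk']), hL]
    have hLbn : (L.map (QuotientGroup.mk' N)).Normal :=
      Subgroup.Normal.map inferInstance _ (QuotientGroup.mk'_surjective N)
    have h2 := card_commutator_le_index hLb (g := QuotientGroup.mk' N g) (fun h => hg (by
      rw [← Subgroup.mem_comap, Subgroup.comap_map_eq_self (by rwa [QuotientGroup.ker_mk'])] at h
      exact h))
    rw [card_commutator_quotient hd.le_comm, hd.card_eq]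
    refine (Nat.mul_le_mul_left _ (h2.trans (Nat.mul_le_mul hc ((index_cbar N g).ge.trans he)))).trans ?_
    rw [← pow_add, ← pow_add]
    exact Nat.pow_le_pow_right hp.out.pos harith
  rcases (show r = 1 ∨ 2 ≤ r by have := hd.r_pos; omega) with hr | hr
  · -- `cz x` is maximal
    have hRi : (cz x).index = p := by rw [hd.index_eq, hr, pow_one]
    have hne : cz x ≠ M := fun h => hRM h.le
    by_cases hI : ∀ y ∈ cz x, y ∉ M → cz y ≤ cz x
    · exact bound_of_centralizer_le (Nat.succ_pos b) (IH b (by omega)) hG hRi hd.indexM hne hgood hI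
    push Not at hI
    obtain ⟨g, hgR, hgM, hg⟩ := hI
    obtain ⟨L, hLn, hL, -, hLK, yL, hyL, hyLM, -⟩ := exists_third hG hRi hd.indexM hne
    refine hstep L hLn hL b g (fun h => hgM (hLK g h hgR))
      (ih_quot (IH b (by omega)) hG hd.indexM hd.le_M (fun h => hyLM (h hyL)) fun y hy hyM =>
        (relIndex_le_index _ _).trans (hpred y hyM fun h => hyM (hLK y hy h))) b
      (by simpa using hd.index_cbar_le hgood hgM hg) ?_
    rw [tri_succ]
    omega
  -- `cz x` has index at least `p ^ 2`
  set P : Set G := {y | y ∉ M ∧ y ∉ cz x ∧ ∃ t ∈ cbar N y, t ∈ cz x ∧ t ∉ M} with hP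
  by_cases hS : cz x ⊔ Subgroup.closure P = ⊤
  · -- generic case
    obtain ⟨P', hP'⟩ : ∃ P', Maximal (fun P' : Set G =>
        P' ⊆ P ∧ cz x ⊔ Subgroup.closure P' ≠ ⊤) P' :=
      Set.Finite.exists_maximal (Set.toFinite _)
        ⟨∅, Set.empty_subset _, by rwa [Subgroup.closure_empty, sup_bot_eq]⟩
    obtain ⟨hP'P, hP't⟩ := hP'.prop
    obtain ⟨K, hK'⟩ : ∃ K, K = cz x ⊔ Subgroup.closure P' := ⟨_, rfl⟩
    have hRK : cz x ≤ K := hK' ▸ le_sup_left
    have hKn : K.Normal := ⟨fun n hn g => by
      rw [show g * n * g⁻¹ = ⁅g, n⁆ * n by simp only [commutatorElement_def]; group]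
      exact K.mul_mem (hRK (hd.comm_le
        (Subgroup.commutator_mem_commutator (Subgroup.mem_top g) (Subgroup.mem_top n)))) hn⟩
    obtain ⟨z, hzP, hzK⟩ : ∃ z ∈ P, z ∉ K := by
      by_contra hcon
      push Not at hcon
      refine hP't (hK' ▸ eq_top_iff.2 (hS ▸ sup_le hRK ((Subgroup.closure_le _).2 hcon)))
    have hKz : K ⊔ Subgroup.zpowers z = ⊤ := by
      by_contra h
      have hsub : cz x ⊔ Subgroup.closure (insert z P') ≤ K ⊔ Subgroup.zpowers z := by
        refine sup_le (hRK.trans le_sup_left) ((Subgroup.closure_le _).2 ?_)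
        rintro w (rfl | hw)
        · exact Subgroup.mem_sup_right (Subgroup.mem_zpowers _)
        · exact Subgroup.mem_sup_left (hK' ▸ Subgroup.mem_sup_right (Subgroup.subset_closure hw))
      have := hP'.le_of_ge ⟨Set.insert_subset hzP hP'P, fun h' => h (eq_top_iff.2 (h' ▸ hsub))⟩
        (Set.subset_insert z P') (Set.mem_insert z P')
      exact hzK (hK' ▸ Subgroup.mem_sup_right (Subgroup.subset_closure this))
    have hK : K.index = p := by
      have hgen : Subgroup.zpowers (z : G ⧸ K) = ⊤ := by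
        refine eq_top_iff.2 fun w _ => ?_
        obtain ⟨a, rfl⟩ := QuotientGroup.mk'_surjective K w
        obtain ⟨k, hk, v, hv, rfl⟩ := Subgroup.mem_sup_of_normal_left.1 (hKz ▸ Subgroup.mem_top a)
        obtain ⟨i, rfl⟩ := Subgroup.mem_zpowers_iff.1 hv
        rw [map_mul, map_zpow, QuotientGroup.mk'_apply, (QuotientGroup.eq_one_iff k).2 hk, one_mul]
        exact Subgroup.zpow_mem_zpowers _ i
      have ho : orderOf (z : G ⧸ K) = p := orderOf_eq_prime
        (by rw [← QuotientGroup.mk_pow, QuotientGroup.eq_one_iff]; exact hRK (hd.pow_mem z))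
        (mt (QuotientGroup.eq_one_iff z).1 hzK)
      rw [Subgroup.index_eq_card, ← ho, ← Nat.card_zpowers, hgen, Subgroup.card_top]
    have hKne : K ≠ M := fun h => hRM (h ▸ hRK)
    obtain ⟨L, hLn, hL, hKML, hLK, yL, hyL, hyLM, -⟩ := exists_third hG hK hd.indexM hKne
    by_cases hI : ∀ y ∈ K, y ∉ M → cz y ≤ K
    · exact bound_of_centralizer_le (Nat.succ_pos b) (IH b (by omega)) hG hK hd.indexM hKne hgood hI
    push Not at hI
    obtain ⟨y₁, hy₁K, hy₁M, hy₁⟩ := hI
    obtain ⟨h₁, hh₁, hh₁K⟩ := SetLike.not_le_iff_exists.1 hy₁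
    set q := QuotientGroup.mk' N with hq
    have hNL : N ≤ L := hd.le_comm.trans (commutator_le_of_index hL)
    have hcm : (L.map q).comap q = L :=
      Subgroup.comap_map_eq_self (by rwa [hq, QuotientGroup.ker_mk'])
    have hLb : (L.map q).index = p := by
      rw [← Subgroup.index_comap_of_surjective _ (QuotientGroup.mk'_surjective N), hcm, hL]
    have hLbn : (L.map q).Normal :=
      Subgroup.Normal.map inferInstance q (QuotientGroup.mk'_surjective N)
    set V := (stepKer (L.map q)).comap q ⊓ L with hV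
    have hmemV : ∀ y ∉ L, ∀ l ∈ L, l ∈ cbar N y → l ∈ V := by
      intro y hy l hl hly
      refine ⟨mem_stepKer hLb (y := q y) (fun h => hy (hcm ▸ Subgroup.mem_comap.2 h))
        (Subgroup.mem_map_of_mem q hl) ?_, hl⟩
      rw [← map_commutatorElement, hq, (mk_commutator N y l).2 (mem_cbar.1 hly)]
      exact Subgroup.one_mem _
    have hVR : K ≤ V ⊔ cz x := by
      rw [hK']
      refine sup_le le_sup_right ((Subgroup.closure_le _).2 fun y hy => ?_)
      obtain ⟨hyM, -, t, ht, htR, htM⟩ := hP'P hy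
      have hyK : y ∈ K := hK' ▸ Subgroup.mem_sup_right (Subgroup.subset_closure hy)
      obtain ⟨i, hi⟩ := exists_zpow_mul_mem hL (fun h => htM (hLK t h (hRK htR))) y
      have hyc : y ∈ cbar N y :=
        centralizer_le_cbar N y (Subgroup.mem_centralizer_singleton_iff.2 rfl)
      have := hmemV y (fun h => hyM (hLK y h hyK)) _ hi (mul_mem hyc (zpow_mem ht i))
      have e : y = y * t ^ i * (t ^ i)⁻¹ := by group
      rw [SetLike.mem_coe, e]
      exact mul_mem (Subgroup.mem_sup_left this) (Subgroup.mem_sup_right (inv_mem (zpow_mem htR i)))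
    have hVtop : V ⊔ cz x = ⊤ := by
      refine eq_top_of_mem hK hVR (g := h₁) ?_ hh₁K
      have hy₁L : y₁ ∉ L := fun h => hy₁M (hLK y₁ h hy₁K)
      obtain ⟨i, hi⟩ := exists_zpow_mul_mem hL hy₁L h₁
      have hyc : y₁ ∈ cbar N y₁ :=
        centralizer_le_cbar N y₁ (Subgroup.mem_centralizer_singleton_iff.2 rfl)
      have := hmemV y₁ hy₁L _ hi (mul_mem (centralizer_le_cbar N y₁ hh₁) (zpow_mem hyc i))
      have e : h₁ = h₁ * y₁ ^ i * (y₁ ^ i)⁻¹ := by group
      rw [e]
      exact mul_mem (Subgroup.mem_sup_left this) (inv_mem (zpow_mem (hVR hy₁K) i))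
    have hVi : V.index * p ^ r ≤ p ^ (b + 1) * p := by
      have hy₀L : y₀ ∉ L := fun h => hy₀ (hLK y₀ h (hRK hy₀R'))
      have h1 : cz y₀ ⊓ L ≤ V ⊓ cz x := fun l hl =>
        ⟨hmemV y₀ hy₀L l hl.2 (centralizer_le_cbar N y₀ hl.1), hy₀R hl.1⟩
      have h2 : (cz x ⊓ V).index = p ^ r * V.index := by
        rw [← Subgroup.relIndex_mul_index (inf_le_right : cz x ⊓ V ≤ V), Subgroup.inf_relIndex_right,
          ← hd.index_eq]
        congr 1
        rw [← Subgroup.relIndex_sup_right, hVtop, Subgroup.relIndex_top_right]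
      calc V.index * p ^ r = (cz x ⊓ V).index := by rw [h2, mul_comm]
        _ ≤ (cz y₀ ⊓ L).index := Nat.le_of_dvd
            (Nat.pos_of_ne_zero Subgroup.index_ne_zero_of_finite)
            (Subgroup.index_dvd_of_le (by rw [inf_comm (cz x) V]; exact h1))
        _ ≤ (cz y₀).index * L.index := Subgroup.index_inf_le
        _ ≤ _ := by rw [hL]; exact Nat.mul_le_mul_right _ (hgood y₀ hy₀)
    have hrel : (stepKer (L.map q)).relIndex (L.map q) * p ^ r ≤ p ^ (b + 1) := by
      have e : V.index = (stepKer (L.map q)).relIndex (L.map q) * p := by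
        rw [← Subgroup.relIndex_mul_index (inf_le_right : V ≤ L), Subgroup.inf_relIndex_right,
          Subgroup.relIndex_comap, hL]
      rw [e, mul_right_comm] at hVi
      exact Nat.le_of_mul_le_mul_right hVi hp.out.pos
    have h1 := ih_quot (IH b (by omega)) hG hd.indexM hd.le_M (fun h => hyLM (h hyL)) fun y hy hyM =>
      (relIndex_le_index _ _).trans (hpred y hyM fun h => hyM (hLK y hy (hRK h)))
    have h2 := card_commutator_le_step hLb (g := q y₀)
      (fun h => hy₀ (hLK y₀ (hcm ▸ Subgroup.mem_comap.2 h) (hRK hy₀R')))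
    rw [card_commutator_quotient hd.le_comm, hd.card_eq, tri_succ, pow_add]
    calc p ^ r * Nat.card (commutator (G ⧸ N))
        ≤ p ^ r * (p ^ tri b * (stepKer (L.map q)).relIndex (L.map q)) :=
          Nat.mul_le_mul_left _ (h2.trans (Nat.mul_le_mul_right _ h1))
      _ = p ^ tri b * ((stepKer (L.map q)).relIndex (L.map q) * p ^ r) := by ring
      _ ≤ _ := Nat.mul_le_mul_left _ hrel
  -- `P` lies in a maximal subgroup containing `cz x`
  obtain ⟨K, hSK, hKn, hK, -⟩ := PGroups.exists_le_index_prime hG hS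
  have hRK : cz x ≤ K := le_sup_left.trans hSK
  have hKne : K ≠ M := fun h => hRM (h ▸ hRK)
  obtain ⟨L, hLn, hL, hKML, hLK, yL, hyL, hyLM, -⟩ := exists_third hG hK hd.indexM hKne
  obtain ⟨g, hgK, hgM, hgR⟩ : ∃ g ∈ K, g ∉ M ∧ g ∉ cz x := by
    by_contra hcon
    push Not at hcon
    have hle : K ≤ cz x := fun m hm => by
      by_cases hmM : m ∈ M
      · exact ((cz x).mul_mem_cancel_right hy₀R').1
          (hcon (m * y₀) (K.mul_mem hm (hRK hy₀R')) fun h => hy₀ ((M.mul_mem_cancel_left hmM).1 h))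
      · exact hcon m hm hmM
    have h := Nat.le_of_dvd (by rw [hK]; exact hp.out.pos) (Subgroup.index_dvd_of_le hle)
    rw [hd.index_eq, hK] at h
    have : p ^ 2 ≤ p ^ r := Nat.pow_le_pow_right hp.out.pos hr
    have := hp.out.two_le
    nlinarith
  obtain ⟨b, rfl⟩ : ∃ b', b = b' + 1 := ⟨b - 1, by omega⟩
  have hrel : ∀ y ∈ L, y ∉ M → (cbar N y).relIndex L ≤ p ^ b := by
    intro y hy hyM
    have hyR : y ∉ cz x := fun h => hyM (hLK y hy (hRK h))
    have hyP : ∀ t ∈ cbar N y, t ∈ cz x → t ∈ M := fun t ht htR => by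
      by_contra htM
      exact hyM (hLK y hy (hSK (Subgroup.mem_sup_right
        (Subgroup.subset_closure (⟨hyM, hyR, t, ht, htR, htM⟩ : y ∈ P)))))
    by_cases hsmall : (cbar N y).index ≤ p ^ b
    · exact (relIndex_le_index _ _).trans hsmall
    rw [not_le] at hsmall
    have hpb := hpred y hyM hyR
    have hxyM := hd.mul_notMem hyM
    have hyy : y ∈ cz y := Subgroup.mem_centralizer_singleton_iff.2 rfl
    have hne' : cz y ≠ cz (x * y) := fun h => hyR <| by
      have : y ∈ cz y ⊓ cz (x * y) := ⟨hyy, h ▸ hyy⟩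
      rw [centralizer_inf] at this
      exact this.2
    have hlt : ∀ A : Subgroup G, A ≤ cbar N y → A.index ≤ p ^ (b + 1 + 1) →
        A.relIndex (cbar N y) ≤ p := by
      intro A hA hAi
      rw [← Subgroup.relIndex_mul_index hA] at hAi
      obtain ⟨n, hn⟩ := (hG.to_subgroup (cbar N y)).index (A.subgroupOf (cbar N y))
      change A.relIndex (cbar N y) = p ^ n at hn
      rw [hn] at hAi ⊢
      have h3 : p ^ n * p ^ b < p ^ (b + 1 + 1) :=
        lt_of_lt_of_le (Nat.mul_lt_mul_of_pos_left hsmall (pow_pos hp.out.pos _)) hAi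
      rw [← pow_add, Nat.pow_lt_pow_iff_right hp.out.one_lt] at h3
      exact (Nat.pow_le_pow_right hp.out.pos (show n ≤ 1 by omega)).trans (pow_one p).le
    have hspan : ∀ u : G, u ∉ cz x → ∀ A B : Subgroup G, u ∈ A → A ≤ cbar N y → B ≤ cbar N y →
        A ⊓ B = A ⊓ cz x → B.relIndex (cbar N y) ≤ p → A ≤ cz x ⊔ Subgroup.zpowers u := by
      intro u hu A B huA hA hB he hB'
      have h4 : A ⊓ cz x < A ⊓ (cz x ⊔ Subgroup.zpowers u) :=
        lt_of_le_of_ne (inf_le_inf_left A le_sup_left) fun h => hu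
          ((h.ge ⟨huA, Subgroup.mem_sup_right (Subgroup.mem_zpowers u)⟩).2)
      have h5 : (A ⊓ cz x).index ≤ p * A.index := by
        rw [← he, ← Subgroup.relIndex_mul_index (inf_le_left : A ⊓ B ≤ A),
          Subgroup.inf_relIndex_left]
        exact Nat.mul_le_mul_right _
          ((Subgroup.relIndex_le_of_le_right hA (rel_ne_zero _ _)).trans hB')
      have h6 := (index_mul_le hG h4).trans h5
      rw [mul_comm p] at h6
      exact (eq_of_le_of_index_le inf_le_left (Nat.le_of_mul_le_mul_right h6 hp.out.pos)) ▸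
        inf_le_right
    have hA1 := hspan y hyR (cz y) (cz (x * y)) hyy (centralizer_le_cbar N y)
      (hd.centralizer_mul_le y) (centralizer_inf y)
      (hlt _ (hd.centralizer_mul_le y) (hgood _ hxyM))
    have hA2 := hspan (x * y)
      (fun h => hyR (((cz x).mul_mem_cancel_left (Subgroup.mem_centralizer_singleton_iff.2 rfl)).1 h))
      (cz (x * y)) (cz y) (Subgroup.mem_centralizer_singleton_iff.2 rfl) (hd.centralizer_mul_le y)
      (centralizer_le_cbar N y) (by rw [inf_comm]; exact centralizer_inf' y)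
      (hlt _ (centralizer_le_cbar N y) (hgood _ hyM))
    have hA3 : cbar N y ≤ cz x ⊔ Subgroup.zpowers y := by
      have hsup : cz y ⊔ cz (x * y) ≤ cbar N y :=
        sup_le (centralizer_le_cbar N y) (hd.centralizer_mul_le y)
      have heq : cz y ⊔ cz (x * y) = cbar N y := by
        rcases hsup.lt_or_eq with hl | hl
        · exfalso
          rcases (le_sup_left : cz y ≤ cz y ⊔ cz (x * y)).lt_or_eq with hl2 | hl2
          · have h7 := index_le_pred hG hl2 (hgood _ hyM)
            have h8 := index_le_pred hG hl h7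
            simp only [Nat.add_sub_cancel] at h8
            omega
          · have hle : cz (x * y) ≤ cz y := hl2 ▸ le_sup_right
            have hl3 : cz (x * y) < cz y := lt_of_le_of_ne hle (Ne.symm hne')
            have h7 := index_le_pred hG hl3 (hgood _ hxyM)
            have h8 := index_le_pred hG (hl2 ▸ hl : cz y < cbar N y) h7
            simp only [Nat.add_sub_cancel] at h8
            omega
        · exact hl
      rw [← heq]
      refine sup_le hA1 (hA2.trans (sup_le le_sup_left (Subgroup.zpowers_le.2 ?_)))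
      exact mul_mem (Subgroup.mem_sup_left (Subgroup.mem_centralizer_singleton_iff.2 rfl))
        (Subgroup.mem_sup_right (Subgroup.mem_zpowers y))
    have hcL : cbar N y ≤ L := by
      intro h hh
      obtain ⟨t, ht, v, hv, rfl⟩ := Subgroup.mem_sup_of_normal_left.1 (hA3 hh)
      obtain ⟨i, rfl⟩ := Subgroup.mem_zpowers_iff.1 hv
      have htc : t ∈ cbar N y := by
        have := mul_mem hh (inv_mem (zpow_mem (centralizer_le_cbar N y hyy) i))
        rwa [mul_inv_cancel_right] at this
      exact mul_mem (hKML ⟨hRK ht, hyP t htc ht⟩) (zpow_mem hy i)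
    rw [← Subgroup.relIndex_mul_index hcL, hL, pow_succ] at hpb
    exact Nat.le_of_mul_le_mul_right hpb hp.out.pos
  refine hstep L hLn hL b g (fun h => hgM (hLK g h hgK))
    (ih_quot (IH b (by omega)) hG hd.indexM hd.le_M (fun h => hyLM (h hyL)) hrel) (b + 1)
    (hpred g hgM hgR) ?_
  rw [tri_succ (b + 1), tri_succ b]
  omega

end Setup

/-- Vaughan-Lee's theorem in relative form. -/
theorem breadthBound (p : ℕ) [hp : Fact p.Prime] : ∀ b, BreadthBound.{u} p b := by
  intro b
  induction b using Nat.strong_induction_on with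
  | _ b IH =>
  intro G _ _ hG M₀ hM₀n hM₀ hgood₀
  by_cases hcomm : ∀ a c : G, a * c = c * a
  · have h : commutator G = ⊥ := by
      rw [commutator_def, eq_bot_iff, Subgroup.commutator_le]
      intro a _ c _
      rw [Subgroup.mem_bot, commutatorElement_eq_one_iff_mul_comm]
      exact hcomm a c
    rw [h, Subgroup.card_bot]
    exact Nat.one_le_pow _ _ hp.out.pos
  have hZtop : Subgroup.center G ≠ ⊤ := fun h => hcomm fun a c =>
    Subgroup.mem_center_iff.1 (h ▸ Subgroup.mem_top c) a
  obtain ⟨M, hMn, hM, hZM, hgood⟩ : ∃ M : Subgroup G, M.Normal ∧ M.index = p ∧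
      Subgroup.center G ≤ M ∧
        ∀ y : G, y ∉ M → (Subgroup.centralizer ({y} : Set G)).index ≤ p ^ b := by
    by_cases hZ : Subgroup.center G ≤ M₀
    · exact ⟨M₀, hM₀n, hM₀, hZ, hgood₀⟩
    obtain ⟨z, hz, hzM⟩ := SetLike.not_le_iff_exists.1 hZ
    obtain ⟨M, hZM, hMn, hM, -⟩ := PGroups.exists_le_index_prime hG hZtop
    refine ⟨M, hMn, hM, hZM, fun y _ => ?_⟩
    by_cases hy : y ∈ M₀
    · have e : Subgroup.centralizer ({y * z} : Set G) = Subgroup.centralizer ({y} : Set G) := by
        ext h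
        rw [Subgroup.mem_centralizer_singleton_iff, Subgroup.mem_centralizer_singleton_iff,
          mul_assoc, ← Subgroup.mem_center_iff.1 hz h, ← mul_assoc, ← mul_assoc, mul_left_inj]
      rw [← e]
      exact hgood₀ _ fun h => hzM ((M₀.mul_mem_cancel_left hy).1 h)
    · exact hgood₀ y hy
  have hnc : ∀ y : G, y ∉ M → y ∉ Subgroup.center G := fun y hy h => hy (hZM h)
  -- an element `x` of `M` which is central of order `p` modulo the centre
  obtain ⟨x, hxM, hxZ, hxc, hxp⟩ : ∃ x ∈ M, x ∉ Subgroup.center G ∧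
      (∀ h : G, ⁅x, h⁆ ∈ Subgroup.center G) ∧ x ^ p ∈ Subgroup.center G := by
    set q := QuotientGroup.mk' (Subgroup.center G) with hq
    have hMq : M.map q ≠ ⊥ := by
      rw [Ne, Subgroup.map_eq_bot_iff, hq, QuotientGroup.ker_mk']
      intro hle
      obtain ⟨y, -, hy⟩ := SetLike.exists_of_lt
        (lt_top_iff_ne_top.2 fun h => hp.out.ne_one (by rw [← hM, h, Subgroup.index_top]) : M < ⊤)
      refine hnc y hy (Subgroup.mem_center_iff.2 fun g => ?_)
      have : Subgroup.centralizer ({y} : Set G) = ⊤ := eq_top_of_mem hM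
        (fun m hm => Subgroup.mem_centralizer_singleton_iff.2
          (Subgroup.mem_center_iff.1 (hle hm) y).symm)
        (g := y) (Subgroup.mem_centralizer_singleton_iff.2 rfl) hy
      exact Subgroup.mem_centralizer_singleton_iff.1 (this ▸ Subgroup.mem_top g)
    have hMqn : (M.map q).Normal :=
      Subgroup.Normal.map inferInstance q (QuotientGroup.mk'_surjective _)
    obtain ⟨w, hwM, hw1, hwZ⟩ :=
      TwoGroups.exists_mem_center_of_normal (hG.to_quotient _) hMq
    obtain ⟨j, hj⟩ := IsPGroup.iff_orderOf.1 (hG.to_quotient (Subgroup.center G)) w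
    obtain ⟨j, rfl⟩ : ∃ j', j = j' + 1 := ⟨j - 1, by
      rcases j with _ | j
      · exact absurd (orderOf_eq_one_iff.1 (by rw [hj, pow_zero])) hw1
      · omega⟩
    obtain ⟨x, hxM, hxw⟩ := (M.map q).pow_mem hwM (p ^ j)
    have hne : w ^ p ^ j ≠ 1 := fun h => by
      have := Nat.le_of_dvd (pow_pos hp.out.pos _) (hj ▸ orderOf_dvd_of_pow_eq_one h)
      exact absurd this (not_le.2 (Nat.pow_lt_pow_right hp.out.one_lt (by omega)))
    refine ⟨x, hxM, fun h => hne (hxw ▸ (QuotientGroup.eq_one_iff x).2 h), fun h => ?_, ?_⟩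
    · rw [← mk_commutator, ← hq, map_commutatorElement, commutatorElement_eq_one_iff_mul_comm,
        hxw]
      exact (Subgroup.mem_center_iff.1 ((Subgroup.center _).pow_mem hwZ _) (q h)).symm
    · refine (QuotientGroup.eq_one_iff (x ^ p)).1 ?_
      show q (x ^ p) = 1
      rw [map_pow, hxw, ← pow_mul, ← pow_succ, ← hj, pow_orderOf_eq_one]
  let φ : G →* G := MonoidHom.mk' (fun h => ⁅x, h⁆) fun a c => by
    rw [show ⁅x, a * c⁆ = ⁅x, a⁆ * (a * ⁅x, c⁆ * a⁻¹) by simp only [commutatorElement_def]; group,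
      Subgroup.mem_center_iff.1 (hxc c) a, mul_inv_cancel_right]
  have hφ : ∀ h, φ h = ⁅x, h⁆ := fun h => rfl
  set N := φ.range with hN
  have hNZ : N ≤ Subgroup.center G := by rintro _ ⟨h, rfl⟩; exact hxc h
  have hNn : N.Normal := ⟨fun n hn g => by
    rwa [Subgroup.mem_center_iff.1 (hNZ hn) g, mul_inv_cancel_right]⟩
  obtain ⟨r, hr⟩ := IsPGroup.iff_card.1 (hG.to_subgroup N)
  have hker : φ.ker = cz x := by
    ext h
    rw [MonoidHom.mem_ker, hφ, commutatorElement_eq_one_iff_mul_comm,
      Subgroup.mem_centralizer_singleton_iff]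
    exact eq_comm
  have hpowx : ∀ (h : G) (n : ℕ), ⁅x ^ n, h⁆ = ⁅x, h⁆ ^ n := by
    intro h n
    induction n with
    | zero => simp
    | succ n ih =>
      rw [pow_succ' x, pow_succ, ← ih,
        show ⁅x * x ^ n, h⁆ = x * ⁅x ^ n, h⁆ * x⁻¹ * ⁅x, h⁆ by
          simp only [commutatorElement_def]; group,
        Subgroup.mem_center_iff.1 (show ⁅x ^ n, h⁆ ∈ Subgroup.center G by
          rw [ih]; exact Subgroup.pow_mem _ (hxc h) n) x, mul_inv_cancel_right]
  have hd : Datum M x N p r :=
    { isPGroup := hG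
      normal := hNn
      normalM := hMn
      indexM := hM
      central := hNZ
      le_comm := by
        rintro _ ⟨h, rfl⟩
        exact Subgroup.commutator_mem_commutator (Subgroup.mem_top x) (Subgroup.mem_top h)
      le_M := hNZ.trans hZM
      x_mem := hxM
      comm_mem := fun h => ⟨h, rfl⟩
      card_eq := hr
      index_eq := by rw [← hker, Subgroup.index_ker, ← hN, hr]
      comm_le := by
        rw [← hker, commutator_def, Subgroup.commutator_le]
        intro a _ c _
        rw [MonoidHom.mem_ker, map_commutatorElement, commutatorElement_eq_one_iff_mul_comm]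
        exact Subgroup.mem_center_iff.1 (hxc c) (φ a)
      pow_mem := fun h => by
        rw [← hker, MonoidHom.mem_ker, map_pow, hφ, ← hpowx,
          commutatorElement_eq_one_iff_mul_comm]
        exact (Subgroup.mem_center_iff.1 hxp h).symm
      r_pos := by
        rw [Nat.one_le_iff_ne_zero]
        rintro rfl
        refine hxZ (Subgroup.mem_center_iff.2 fun g => ?_)
        rw [pow_zero, Subgroup.card_eq_one] at hr
        have h1 : φ g ∈ N := ⟨g, rfl⟩
        rw [hr, Subgroup.mem_bot, hφ, commutatorElement_eq_one_iff_mul_comm] at h1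
        exact h1.symm }
  rcases lt_or_ge b r with h | h
  · exact hd.bound_large hgood IH h hnc
  · exact hd.bound_small hgood IH h

end CfsgLib.VaughanLee
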