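import Mathlib
import Cfsg.Agent.Lib.PGroups.Basic

/-!
Preliminaries for Vaughan-Lee's theorem on the breadth of a finite p-group.
-/

set_option autoImplicit false

open scoped commutatorElement

namespace CfsgLib.VaughanLee

variable {G : Type*} [Group G] {p : ℕ}

/-- The bound `b (b + 1) / 2`. -/
def tri (b : ℕ) : ℕ := b * (b + 1) / 2

theorem tri_eq (b : ℕ) : tri b = b * (b + 1) / 2 := rfl

theorem tri_succ (b : ℕ) : tri (b + 1) = tri b + (b + 1) := by
  rw [tri_eq, tri_eq, show (b + 1) * (b + 1 + 1) = b * (b + 1) + (b + 1) * 2 by ring,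
    Nat.add_mul_div_right _ _ two_pos]

theorem tri_gap {b c r : ℕ} (hcb : c + 2 ≤ b) (hr : r + c + 1 ≤ 2 * b) :
    tri c + c + r ≤ tri b := by
  suffices h : ∀ d, tri c + 2 * c + 3 + 2 * d ≤ tri (c + 2 + d) by
    obtain ⟨d, rfl⟩ := Nat.exists_eq_add_of_le hcb
    have := h d
    omega
  intro d
  induction d with
  | zero =>
    show _ ≤ tri (c + 2)
    rw [tri_succ (c + 1), tri_succ c]
    omega
  | succ d ih =>
    rw [show c + 2 + (d + 1) = (c + 2 + d) + 1 by omega, tri_succ]
    omega

/-- The centralizer of an element. -/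
abbrev cz (y : G) : Subgroup G := Subgroup.centralizer ({y} : Set G)

theorem mk_commutator (N : Subgroup G) [N.Normal] (a b : G) :
    (QuotientGroup.mk' N) ⁅a, b⁆ = 1 ↔ ⁅a, b⁆ ∈ N :=
  QuotientGroup.eq_one_iff _

/-- The preimage of the centralizer of `y` modulo `N`. -/
def cbar (N : Subgroup G) [N.Normal] (y : G) : Subgroup G :=
  (Subgroup.centralizer ({QuotientGroup.mk' N y} : Set (G ⧸ N))).comap (QuotientGroup.mk' N)

theorem mem_cbar {N : Subgroup G} [N.Normal] {y h : G} : h ∈ cbar N y ↔ ⁅y, h⁆ ∈ N := by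
  rw [cbar, Subgroup.mem_comap, Subgroup.mem_centralizer_singleton_iff, ← mk_commutator,
    map_commutatorElement, commutatorElement_eq_one_iff_mul_comm]
  exact eq_comm

theorem centralizer_le_cbar (N : Subgroup G) [N.Normal] (y : G) :
    Subgroup.centralizer ({y} : Set G) ≤ cbar N y := fun h hh => by
  rw [mem_cbar, commutatorElement_eq_one_iff_mul_comm.2
    (Subgroup.mem_centralizer_singleton_iff.1 hh).symm]
  exact N.one_mem

theorem index_cbar (N : Subgroup G) [N.Normal] (y : G) : (cbar N y).index =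
    (Subgroup.centralizer ({QuotientGroup.mk' N y} : Set (G ⧸ N))).index :=
  Subgroup.index_comap_of_surjective _ (QuotientGroup.mk'_surjective N)

theorem relIndex_cbar (N : Subgroup G) [N.Normal] (y : G) (L : Subgroup G) :
    (cbar N y).relIndex L = (Subgroup.centralizer ({QuotientGroup.mk' N y} : Set (G ⧸ N))).relIndex
      (L.map (QuotientGroup.mk' N)) :=
  Subgroup.relIndex_comap _ _ _

theorem centralizer_subgroupOf (K : Subgroup G) (y : K) :
    Subgroup.centralizer ({y} : Set K) =
      (Subgroup.centralizer ({(y : G)} : Set G)).subgroupOf K := by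
  ext h
  rw [Subgroup.mem_subgroupOf, Subgroup.mem_centralizer_singleton_iff,
    Subgroup.mem_centralizer_singleton_iff]
  exact ⟨fun e => congrArg Subtype.val e, fun e => Subtype.ext e⟩

theorem card_commutator_subgroup (K : Subgroup G) :
    Nat.card (commutator K) = Nat.card ↥⁅K, K⁆ := by
  rw [← Subgroup.map_subtype_commutator K,
    Subgroup.card_map_of_injective K.subtype_injective]

theorem card_comap_mk [Finite G] (N : Subgroup G) [N.Normal] (I : Subgroup (G ⧸ N)) :
    Nat.card (I.comap (QuotientGroup.mk' N)) = Nat.card N * Nat.card I := by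
  have h1 := (I.comap (QuotientGroup.mk' N)).card_mul_index
  rw [Subgroup.index_comap_of_surjective _ (QuotientGroup.mk'_surjective N),
    ← N.card_mul_index, Subgroup.index_eq_card N, ← I.card_mul_index, ← mul_assoc] at h1
  exact Nat.eq_of_mul_eq_mul_right (Nat.pos_of_ne_zero Subgroup.index_ne_zero_of_finite) h1

theorem card_commutator_quotient [Finite G] {N : Subgroup G} [N.Normal] (hN : N ≤ commutator G) :
    Nat.card (commutator G) = Nat.card N * Nat.card (commutator (G ⧸ N)) := by
  have h : (commutator G).map (QuotientGroup.mk' N) = commutator (G ⧸ N) := by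
    rw [commutator_def, commutator_def, Subgroup.map_commutator,
      Subgroup.map_top_of_surjective _ (QuotientGroup.mk'_surjective N)]
  rw [← card_comap_mk, ← h, Subgroup.comap_map_eq_self (by rwa [QuotientGroup.ker_mk'])]

section PGroup

variable [Finite G] [hp : Fact p.Prime]

theorem rel_ne_zero (A B : Subgroup G) : A.relIndex B ≠ 0 :=
  Subgroup.index_ne_zero_of_finite

theorem index_mul_le (hG : IsPGroup p G) {A B : Subgroup G} (h : A < B) :
    B.index * p ≤ A.index := by
  obtain ⟨n, hn⟩ := (hG.to_subgroup B).index (A.subgroupOf B)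
  change A.relIndex B = p ^ n at hn
  have hn0 : n ≠ 0 := fun h0 => h.not_ge (Subgroup.relIndex_eq_one.1 (by rw [hn, h0, pow_zero]))
  rw [← Subgroup.relIndex_mul_index h.le, hn, mul_comm _ B.index]
  exact Nat.mul_le_mul_left _ (Nat.le_self_pow hn0 p)

theorem index_le_pred (hG : IsPGroup p G) {A B : Subgroup G} (h : A < B) {b : ℕ}
    (hA : A.index ≤ p ^ b) : B.index ≤ p ^ (b - 1) := by
  have h1 := (index_mul_le hG h).trans hA
  rcases b with _ | b
  · have := Nat.pos_of_ne_zero (Subgroup.index_ne_zero_of_finite (H := B))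
    have := hp.out.two_le
    rw [pow_zero] at h1
    nlinarith
  · rw [pow_succ] at h1
    exact Nat.le_of_mul_le_mul_right h1 hp.out.pos

theorem eq_of_le_of_index_le {A B : Subgroup G} (h : A ≤ B) (hi : A.index ≤ B.index) : A = B := by
  refine le_antisymm h (Subgroup.relIndex_eq_one.1 ?_)
  have h1 := Subgroup.relIndex_mul_index h
  have h2 := Nat.pos_of_ne_zero (Subgroup.index_ne_zero_of_finite (H := B))
  have h3 := Nat.pos_of_ne_zero (rel_ne_zero A B)
  nlinarith

theorem relIndex_le_index (A B : Subgroup G) : A.relIndex B ≤ A.index := by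
  rw [← Subgroup.relIndex_top_right]
  exact Subgroup.relIndex_le_of_le_right le_top (rel_ne_zero _ _)

theorem eq_top_of_mem {K S : Subgroup G} (hK : K.index = p) (hKS : K ≤ S) {g : G} (hg : g ∈ S)
    (hgK : g ∉ K) : S = ⊤ := by
  have h := Subgroup.index_dvd_of_le hKS
  rw [hK] at h
  rcases hp.out.eq_one_or_self_of_dvd _ h with h1 | h1
  · exact Subgroup.index_eq_one.1 h1
  · exact absurd (eq_of_le_of_index_le hKS (by rw [hK, h1]) ▸ hg) hgK

omit [Finite G] in
theorem commutator_le_of_index {K : Subgroup G} [K.Normal] (hK : K.index = p) :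
    commutator G ≤ K := by
  have hc : IsCyclic (G ⧸ K) := isCyclic_of_prime_card (p := p) (Subgroup.index_eq_card K ▸ hK)
  let _ : CommGroup (G ⧸ K) := hc.commGroup
  exact (Abelianization.commutator_subset_ker (QuotientGroup.mk' K)).trans
    (QuotientGroup.ker_mk' K).le

omit [Finite G] hp in
theorem pow_mem_of_index {K : Subgroup G} [K.Normal] (hK : K.index = p) (g : G) : g ^ p ∈ K := by
  rw [← QuotientGroup.eq_one_iff, QuotientGroup.mk_pow]
  conv_lhs => rw [← hK, Subgroup.index_eq_card]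
  exact pow_card_eq_one'

omit [Finite G] in
theorem exists_zpow_mul_mem {L : Subgroup G} [L.Normal] (hL : L.index = p) {t : G} (ht : t ∉ L)
    (y : G) : ∃ i : ℤ, y * t ^ i ∈ L := by
  have h : ((y : G ⧸ L))⁻¹ ∈ Subgroup.zpowers ((t : G ⧸ L)) := by
    rw [zpowers_eq_top_of_prime_card (p := p) (Subgroup.index_eq_card L ▸ hL)
      (mt (QuotientGroup.eq_one_iff t).1 ht)]
    exact Subgroup.mem_top _
  obtain ⟨i, hi⟩ := Subgroup.mem_zpowers_iff.1 h
  refine ⟨i, (QuotientGroup.eq_one_iff _).1 ?_⟩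
  rw [QuotientGroup.mk_mul, QuotientGroup.mk_zpow, hi, mul_inv_cancel]

/-- The elements of `K` commuting with the whole group modulo `[K, K]`. -/
def stepKer (K : Subgroup G) [K.Normal] : Subgroup G :=
  (Subgroup.center (G ⧸ ⁅K, K⁆)).comap (QuotientGroup.mk' ⁅K, K⁆)

theorem mem_stepKer {K : Subgroup G} [K.Normal] (hK : K.index = p) {y k : G} (hy : y ∉ K)
    (hk : k ∈ K) (h : ⁅y, k⁆ ∈ ⁅K, K⁆) : k ∈ stepKer K := by
  set q := QuotientGroup.mk' ⁅K, K⁆ with hq
  show q k ∈ Subgroup.center _
  have hS : (Subgroup.centralizer ({q k} : Set _)).comap q = ⊤ := by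
    refine eq_top_of_mem hK (fun a ha => ?_) (g := y) ?_ hy
    · rw [Subgroup.mem_comap, Subgroup.mem_centralizer_singleton_iff,
        ← commutatorElement_eq_one_iff_mul_comm, ← map_commutatorElement, hq, mk_commutator]
      exact Subgroup.commutator_mem_commutator ha hk
    · rw [Subgroup.mem_comap, Subgroup.mem_centralizer_singleton_iff,
        ← commutatorElement_eq_one_iff_mul_comm, ← map_commutatorElement, hq, mk_commutator]
      exact h
  rw [Subgroup.mem_center_iff]
  intro g
  obtain ⟨a, rfl⟩ := QuotientGroup.mk'_surjective _ g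
  have : a ∈ (Subgroup.centralizer ({q k} : Set _)).comap q := hS ▸ Subgroup.mem_top a
  exact Subgroup.mem_centralizer_singleton_iff.1 this

theorem card_commutator_le_step {K : Subgroup G} [K.Normal] (hK : K.index = p) {g : G}
    (hg : g ∉ K) :
    Nat.card (commutator G) ≤ Nat.card ↥⁅K, K⁆ * (stepKer K).relIndex K := by
  set D := ⁅K, K⁆ with hD
  set q := QuotientGroup.mk' D with hq
  have hcomm : ∀ a ∈ K, ∀ b ∈ K, q a * q b = q b * q a := fun a ha b hb => by
    rw [← commutatorElement_eq_one_iff_mul_comm, ← map_commutatorElement, hq, mk_commutator]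
    exact Subgroup.commutator_mem_commutator ha hb
  have hgk : ∀ k ∈ K, ⁅g, k⁆ ∈ K := fun k hk =>
    K.mul_mem (‹K.Normal›.conj_mem k hk g) (K.inv_mem hk)
  let θ : K →* G ⧸ D := MonoidHom.mk' (fun k => q ⁅g, (k : G)⁆) (fun a b => by
    rw [Subgroup.coe_mul, show ⁅g, (a : G) * b⁆ = ⁅g, (a : G)⁆ * ((a : G) * ⁅g, (b : G)⁆ * (a : G)⁻¹) by
      simp only [commutatorElement_def]; group, map_mul, map_mul, map_mul,
      hcomm a a.2 _ (hgk b b.2), map_inv, mul_inv_cancel_right])
  have hθ : ∀ k : K, θ k = q ⁅g, (k : G)⁆ := fun k => rfl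
  set I := θ.range with hI
  have hnorm : (Subgroup.normalizer (I : Set (G ⧸ D))).comap q = ⊤ := by
    refine eq_top_of_mem hK (fun a ha => ?_) (g := g) ?_ hg
    · rw [Subgroup.mem_comap]
      refine Subgroup.centralizer_le_normalizer (I : Set (G ⧸ D)) ?_
      rw [Subgroup.mem_centralizer_iff]
      rintro _ ⟨k, rfl⟩
      rw [hθ]
      exact hcomm _ (hgk k k.2) a ha
    · rw [Subgroup.mem_comap, Subgroup.mem_normalizer_iff_map_conj_eq]
      refine Subgroup.eq_of_le_of_card_ge ?_
        (Subgroup.card_map_of_injective (MulAut.conj (q g)).injective).ge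
      rintro _ ⟨_, ⟨k, rfl⟩, rfl⟩
      refine ⟨⟨g * k * g⁻¹, ‹K.Normal›.conj_mem k k.2 g⟩, ?_⟩
      show q ⁅g, g * (k : G) * g⁻¹⁆ = q g * q ⁅g, (k : G)⁆ * (q g)⁻¹
      rw [← map_inv, ← map_mul, ← map_mul]
      congr 1
      simp only [commutatorElement_def]; group
  have hIn : I.Normal := by
    rw [← Subgroup.normalizer_eq_top_iff]
    refine eq_top_iff.2 fun z _ => ?_
    obtain ⟨a, rfl⟩ := QuotientGroup.mk'_surjective _ z
    have : a ∈ (Subgroup.normalizer (I : Set (G ⧸ D))).comap q := hnorm ▸ Subgroup.mem_top a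
    exact this
  set J := I.comap q with hJ
  have hDJ : D ≤ J := fun d hd => by
    show q d ∈ I
    rw [hq, QuotientGroup.mk'_apply, (QuotientGroup.eq_one_iff d).2 hd]
    exact I.one_mem
  have hgJ : ∀ k ∈ K, ⁅g, k⁆ ∈ J := fun k hk => ⟨⟨k, hk⟩, rfl⟩
  have hle : commutator G ≤ J := by
    have hiff : ∀ a b : G, a ∈ cbar J b ↔ ⁅b, a⁆ ∈ J := fun a b => mem_cbar
    have hgall : cbar J g = ⊤ := eq_top_of_mem hK (fun k hk => mem_cbar.2 (hgJ k hk))
      (mem_cbar.2 (by rw [commutatorElement_self]; exact J.one_mem)) hg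
    have hall : ∀ a : G, cbar J a = ⊤ := fun a => by
      refine eq_top_of_mem hK (fun k hk => ?_) (g := g) ?_ hg
      · rw [mem_cbar, ← J.inv_mem_iff, commutatorElement_inv, ← mem_cbar]
        have : cbar J k = ⊤ := eq_top_of_mem hK
          (fun k' hk' => mem_cbar.2 (hDJ (Subgroup.commutator_mem_commutator hk hk'))) (g := g)
          (by rw [mem_cbar, ← J.inv_mem_iff, commutatorElement_inv]; exact hgJ k hk) hg
        exact this ▸ Subgroup.mem_top a
      · rw [mem_cbar, ← J.inv_mem_iff, commutatorElement_inv, ← mem_cbar]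
        exact hgall ▸ Subgroup.mem_top a
    rw [commutator_def, Subgroup.commutator_le]
    intro a _ b _
    exact mem_cbar.1 ((hall a) ▸ Subgroup.mem_top b)
  calc Nat.card (commutator G) ≤ Nat.card J := Subgroup.card_le_of_le hle
    _ = Nat.card D * Nat.card I := card_comap_mk D I
    _ ≤ _ := by
      refine Nat.mul_le_mul_left _ ?_
      rw [hI, ← Subgroup.index_ker]
      refine Nat.le_of_dvd (Nat.pos_of_ne_zero (rel_ne_zero _ _))
        (Subgroup.index_dvd_of_le fun k hk => ?_)
      rw [MonoidHom.mem_ker, hθ, map_commutatorElement, commutatorElement_eq_one_iff_mul_comm]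
      exact Subgroup.mem_center_iff.1 hk (q g)

theorem card_commutator_le_index {K : Subgroup G} [K.Normal] (hK : K.index = p) {g : G}
    (hg : g ∉ K) :
    Nat.card (commutator G) ≤ Nat.card ↥⁅K, K⁆ * (Subgroup.centralizer ({g} : Set G)).index := by
  refine (card_commutator_le_step hK hg).trans (Nat.mul_le_mul_left _ ?_)
  have h : (stepKer K).relIndex K ≤ (Subgroup.centralizer ({g} : Set G) ⊓ K).relIndex K := by
    refine Subgroup.relIndex_le_of_le_left (fun k hk => mem_stepKer hK hg hk.2 ?_)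
      (rel_ne_zero _ _)
    rw [commutatorElement_eq_one_iff_mul_comm.2
      (Subgroup.mem_centralizer_singleton_iff.1 hk.1).symm]
    exact Subgroup.one_mem _
  rw [Subgroup.inf_relIndex_right] at h
  exact h.trans (relIndex_le_index _ _)

/-- Two distinct maximal subgroups give a third one through their intersection. -/
theorem exists_third (hG : IsPGroup p G) {K M : Subgroup G} [K.Normal] [M.Normal]
    (hK : K.index = p) (hM : M.index = p) (hne : K ≠ M) :
    ∃ L : Subgroup G, L.Normal ∧ L.index = p ∧ K ⊓ M ≤ L ∧ (∀ y ∈ L, y ∈ K → y ∈ M) ∧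
      ∃ y ∈ L, y ∉ M ∧ y ∉ K := by
  obtain ⟨k, hkK, hkM⟩ : ∃ k ∈ K, k ∉ M := SetLike.not_le_iff_exists.1 fun h =>
    hne (eq_of_le_of_index_le h (by rw [hK, hM]))
  obtain ⟨m, hmM, hmK⟩ : ∃ m ∈ M, m ∉ K := SetLike.not_le_iff_exists.1 fun h =>
    hne (eq_of_le_of_index_le h (by rw [hK, hM])).symm
  have huM : k * m ∉ M := fun h => hkM ((M.mul_mem_cancel_right hmM).1 h)
  have huK : k * m ∉ K := fun h => hmK ((K.mul_mem_cancel_left hkK).1 h)
  set D := K ⊓ M with hD
  set L := D ⊔ Subgroup.zpowers (k * m) with hL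
  have hkey : ∀ y ∈ L, y ∈ K → y ∈ M := by
    intro y hy hyK
    obtain ⟨d, hd, z, hz, rfl⟩ := Subgroup.mem_sup_of_normal_left.1 hy
    obtain ⟨i, rfl⟩ := Subgroup.mem_zpowers_iff.1 hz
    have hzK : (k * m) ^ i ∈ K := (K.mul_mem_cancel_left hd.1).1 hyK
    have ho : orderOf ((k * m : G) : G ⧸ K) = p := orderOf_eq_prime
      (by rw [← QuotientGroup.mk_pow, QuotientGroup.eq_one_iff]; exact pow_mem_of_index hK _)
      (mt (QuotientGroup.eq_one_iff _).1 huK)
    have hdvd : (p : ℤ) ∣ i := by
      rw [← ho, orderOf_dvd_iff_zpow_eq_one, ← QuotientGroup.mk_zpow, QuotientGroup.eq_one_iff]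
      exact hzK
    obtain ⟨j, rfl⟩ := hdvd
    rw [zpow_mul, zpow_natCast]
    exact M.mul_mem hd.2 (M.zpow_mem (pow_mem_of_index hM _) j)
  have hcL : commutator G ≤ L :=
    (le_inf (commutator_le_of_index hK) (commutator_le_of_index hM)).trans le_sup_left
  have hLn : L.Normal := ⟨fun n hn g => by
    rw [show g * n * g⁻¹ = ⁅g, n⁆ * n by simp only [commutatorElement_def]; group]
    exact L.mul_mem (hcL (Subgroup.commutator_mem_commutator (Subgroup.mem_top g)
      (Subgroup.mem_top n))) hn⟩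
  have hkL : k ∉ L := fun h => hkM (hkey k h hkK)
  have hDi : D.index ≤ p * p := by
    refine Subgroup.index_inf_le.trans ?_
    rw [hK, hM]
  have hDL : D < L := lt_of_le_of_ne le_sup_left fun h =>
    huK (h ▸ Subgroup.mem_sup_right (Subgroup.mem_zpowers _) : k * m ∈ D).1
  have h1 : L.index ≤ p := Nat.le_of_mul_le_mul_right ((index_mul_le hG hDL).trans hDi) hp.out.pos
  have h2 : p ≤ L.index := by
    have := index_mul_le hG (lt_top_iff_ne_top.2 fun h => hkL (h ▸ Subgroup.mem_top k) :
      L < ⊤)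
    rwa [Subgroup.index_top, one_mul] at this
  exact ⟨L, hLn, le_antisymm h1 h2, le_sup_left, hkey, k * m,
    Subgroup.mem_sup_right (Subgroup.mem_zpowers _), huM, huK⟩

end PGroup

end CfsgLib.VaughanLee
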